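import Cfsg.Agent.Lib.Helper68.MG.Defs

set_option autoImplicit false

/-! # S3620 (Marggraf), primitive case, `e₀ = 1` (helper95) -/

namespace Cfsg.Agent.Lib.Helper95.MG

open Cfsg.Agent.Lib.Helper68.MG MulAction

universe u
variable {Ω : Type u}

/-- elements of `Fx G F` preserve the complement of `F` -/
theorem M1_notMem {G : Subgroup (Equiv.Perm Ω)} {F : Set Ω} {g : Equiv.Perm Ω} (hg : g ∈ Fx G F)
    {x : Ω} (hx : x ∉ F) : g x ∉ F := by
  intro h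
  have h1 := hg.2 (g x) h
  exact hx ((g.injective h1) ▸ h)

/-- `Fx G (Γᶜ \ {b})` is 2-transitive on the complement -/
theorem M1_two (G : Subgroup (Equiv.Perm Ω)) (Γ : Set Ω) (hJ : Jor G Γᶜ) (b : Ω) (hb : b ∈ Γᶜ)
    (hJ1 : Jor G (Γᶜ \ {b})) (a a' c c' : Ω) (ha : a ∉ Γᶜ \ {b}) (ha' : a' ∉ Γᶜ \ {b})
    (hc : c ∉ Γᶜ \ {b}) (hc' : c' ∉ Γᶜ \ {b}) (haa : a ≠ a') (hcc : c ≠ c') :
    ∃ g ∈ Fx G (Γᶜ \ {b}), g a = c ∧ g a' = c' := by
  have hbs : b ∉ Γᶜ \ {b} := fun h => h.2 rfl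
  obtain ⟨g1, hg1, e1⟩ := hJ1 a ha b hbs
  obtain ⟨g2, hg2, e2⟩ := hJ1 c hc b hbs
  have key : ∀ (g : Equiv.Perm Ω), g ∈ Fx G (Γᶜ \ {b}) → ∀ x y : Ω, g x = b → x ≠ y →
      y ∉ Γᶜ \ {b} → g y ∉ Γᶜ := by
    intro g hg x y hx hxy hy h
    have h1 := M1_notMem hg hy
    apply h1
    refine ⟨h, ?_⟩
    intro h2
    have h3 : g y = b := h2
    exact hxy (g.injective (hx.trans h3.symm))
  obtain ⟨h, hh, e3⟩ := hJ (g1 a') (key g1 hg1 a a' e1 haa ha') (g2 c') (key g2 hg2 c c' e2 hcc hc')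
  have hh' : h ∈ Fx G (Γᶜ \ {b}) := ⟨hh.1, fun f hf => hh.2 f hf.1⟩
  refine ⟨g2⁻¹ * h * g1, mul_mem (mul_mem (inv_mem hg2) hh') hg1, ?_, ?_⟩
  · rw [Equiv.Perm.mul_apply, Equiv.Perm.mul_apply, e1, hh.2 b hb, Equiv.Perm.inv_eq_iff_eq, e2]
  · rw [Equiv.Perm.mul_apply, Equiv.Perm.mul_apply, e3, Equiv.Perm.inv_eq_iff_eq]

/-- the 3-cycle lemma -/
theorem M1_T3 [DecidableEq Ω] [Fintype Ω] (k g : Equiv.Perm Ω) (a : Ω) (ha : k a ≠ a)
    (hg : ∀ x, k x ≠ x → x ≠ a → g x = x) (hga : k (g a) = g a) :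
    (k⁻¹ * (g * k * g⁻¹)).IsThreeCycle := by
  have hu : k (k⁻¹ a) = a := by simp
  have hua : k⁻¹ a ≠ a := fun h => ha (by rw [h] at hu; exact hu)
  have hku : k (k⁻¹ a) ≠ k⁻¹ a := by rw [hu]; exact Ne.symm hua
  have hgu : g (k⁻¹ a) = k⁻¹ a := hg _ hku hua
  have hc0a : g a ≠ a := fun h => ha (by rw [h] at hga; exact hga)
  have hc0u : g a ≠ k⁻¹ a := fun h => hku (by rw [← h]; exact hga)
  have hkk : ∀ z, k z ≠ z → k (k z) ≠ k z := fun z hz h => hz (k.injective h)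
  have hσ : k⁻¹ * (g * k * g⁻¹) = Equiv.swap (k⁻¹ a) a * Equiv.swap (k⁻¹ a) (g a) := by
    ext x
    simp only [Equiv.Perm.mul_apply]
    by_cases hxa : x = a
    · rw [hxa, Equiv.swap_apply_of_ne_of_ne (Ne.symm hua) (Ne.symm hc0a), Equiv.swap_apply_right]
      have hgy : g (g⁻¹ a) = a := by simp
      have hy : k (g⁻¹ a) = g⁻¹ a := by
        by_contra hy
        by_cases hya : g⁻¹ a = a
        · rw [hya] at hgy; exact hc0a hgy
        · have := hg _ hy hya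
          rw [hgy] at this
          exact hya this.symm
      rw [hy, hgy]
    · by_cases hxc : x = g a
      · have h0 : g⁻¹ (g a) = a := by simp
        rw [hxc, Equiv.swap_apply_right, Equiv.swap_apply_left, h0,
          Equiv.Perm.inv_eq_iff_eq]
        exact hg _ (hkk a ha) ha
      · by_cases hxu : x = k⁻¹ a
        · have h1 : g⁻¹ (k⁻¹ a) = k⁻¹ a := by rw [Equiv.Perm.inv_eq_iff_eq, hgu]
          rw [hxu, Equiv.swap_apply_left, Equiv.swap_apply_of_ne_of_ne hc0u hc0a, h1, hu,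
            Equiv.Perm.inv_eq_iff_eq, hga]
        · rw [Equiv.swap_apply_of_ne_of_ne hxu hxc, Equiv.swap_apply_of_ne_of_ne hxu hxa,
            Equiv.Perm.inv_eq_iff_eq]
          have hgy : g (g⁻¹ x) = x := by simp
          by_cases hy : k (g⁻¹ x) = g⁻¹ x
          · rw [hy, hgy]
            by_contra hkx
            have h2 := hg x (fun h => hkx h.symm) hxa
            have h3 : g⁻¹ x = x := by rw [Equiv.Perm.inv_eq_iff_eq, h2]
            rw [h3] at hy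
            exact hkx hy.symm
          · have hya : g⁻¹ x ≠ a := fun h => hxc (by rw [h] at hgy; exact hgy.symm)
            have h2 := hg _ hy hya
            have h3 : g⁻¹ x = x := by rw [hgy] at h2; exact h2.symm
            rw [h3] at hy ⊢
            apply hg _ (hkk x hy)
            intro h4
            apply hxu
            rw [← h4]; simp
  rw [hσ]
  exact Equiv.Perm.isThreeCycle_swap_mul_swap_same hua (Ne.symm hc0u) (Ne.symm hc0a)

/-- the case `e₀ = 1` of Marggraf's theorem -/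
theorem M1_alt [Fintype Ω] [DecidableEq Ω] (G : Subgroup (Equiv.Perm Ω))
    (hprim : MulAction.IsPreprimitive G Ω) (Γ : Set Ω) (h1 : 2 ≤ Γ.ncard)
    (h2 : 2 * Γ.ncard < Fintype.card Ω) (hJ : Jor G Γᶜ) (b : Ω) (hb : b ∈ Γᶜ)
    (hJ1 : Jor G (Γᶜ \ {b})) : alternatingGroup Ω ≤ G := by
  classical
  have hcΓ : Γᶜ.ncard = Fintype.card Ω - Γ.ncard := by
    rw [Set.ncard_compl, Nat.card_eq_fintype_card]
  have hcs : (Γᶜ \ {b}).ncard = Fintype.card Ω - Γ.ncard - 1 := by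
    rw [Set.ncard_sdiff_singleton_of_mem hb, hcΓ]
  obtain ⟨n, hn⟩ : ∃ n, (Γᶜ \ {b}).ncard = n + 1 := ⟨(Γᶜ \ {b}).ncard - 1, by omega⟩
  have hn' : n + 2 < Nat.card Ω := by rw [Nat.card_eq_fintype_card]; omega
  have h2t : IsMultiplyPretransitive (fixingSubgroup G (Γᶜ \ {b}))
      (SubMulAction.ofFixingSubgroup G (Γᶜ \ {b})) 2 := by
    rw [is_two_pretransitive_iff]
    intro a a' c c' haa hcc
    obtain ⟨g, hg, e1, e2⟩ := M1_two G Γ hJ b hb hJ1 a.1 a'.1 c.1 c'.1 a.2 a'.2 c.2 c'.2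
      (fun h => haa (Subtype.ext h)) (fun h => hcc (Subtype.ext h))
    refine ⟨⟨⟨g, hg.1⟩, ?_⟩, Subtype.ext e1, Subtype.ext e2⟩
    rw [mem_fixingSubgroup_iff]
    intro y hy
    exact hg.2 y hy
  have hpp : IsPreprimitive (fixingSubgroup G (Γᶜ \ {b}))
      (SubMulAction.ofFixingSubgroup G (Γᶜ \ {b})) := isPreprimitive_of_is_two_pretransitive h2t
  have hmp := hprim.isMultiplyPreprimitive hn hn' hpp
  haveI : IsMultiplyPretransitive G Ω (n + 2) :=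
    IsMultiplyPreprimitive.isMultiplyPretransitive G Ω (n + 2)
  obtain ⟨x, hx, y, hy, hxy⟩ := (Set.one_lt_ncard (Set.toFinite Γ)).1 (by omega : 1 < Γ.ncard)
  obtain ⟨k, hk, hkx⟩ := hJ x (not_not.2 hx) y (not_not.2 hy)
  have hka : k x ≠ x := by rw [hkx]; exact hxy.symm
  have htΓ : {z | k z ≠ z ∧ z ≠ x} ⊆ Γ \ {x} := by
    rintro z ⟨hz, hzx⟩
    refine ⟨?_, hzx⟩
    by_contra hzΓ
    exact hz (hk.2 z hzΓ)
  have htc : ({z | k z ≠ z ∧ z ≠ x} : Set Ω).ncard + 1 ≤ Γ.ncard := by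
    have h3 := Set.ncard_le_ncard htΓ (Set.toFinite _)
    rw [Set.ncard_sdiff_singleton_of_mem hx] at h3
    omega
  haveI : IsMultiplyPretransitive G Ω (({z | k z ≠ z ∧ z ≠ x} : Set Ω).ncard + 1) :=
    isMultiplyPretransitive_of_le (n := n + 2) (by omega) (le_of_lt hn')
  have htr : IsMultiplyPretransitive (fixingSubgroup G ({z | k z ≠ z ∧ z ≠ x} : Set Ω))
      (SubMulAction.ofFixingSubgroup G ({z | k z ≠ z ∧ z ≠ x} : Set Ω)) 1 :=
    SubMulAction.ofFixingSubgroup.isMultiplyPretransitive G _ rfl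
  rw [is_one_pretransitive_iff] at htr
  have hkb : k b = b := hk.2 b hb
  obtain ⟨g, hg⟩ := htr.exists_smul_eq
    (⟨x, fun h => h.2 rfl⟩ : SubMulAction.ofFixingSubgroup G ({z | k z ≠ z ∧ z ≠ x} : Set Ω))
    ⟨b, fun h => h.1 hkb⟩
  have hgx : (g.1.1 : Equiv.Perm Ω) x = b := congrArg Subtype.val hg
  have h3 := M1_T3 k g.1.1 x hka
    (fun z hz hzx => ((mem_fixingSubgroup_iff _).1 g.2) z ⟨hz, hzx⟩) (by rw [hgx]; exact hkb)
  exact Equiv.Perm.alternatingGroup_le_of_isPreprimitive_of_isThreeCycle_mem hprim h3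
    (mul_mem (inv_mem hk.1) (mul_mem (mul_mem g.1.2 hk.1) (inv_mem g.1.2)))

end Cfsg.Agent.Lib.Helper95.MG
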